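import Cfsg.Agent.Lib.Witt.HermParabolic
import Cfsg.Agent.Lib.Witt.HermModel

/-!
# Involutions of `SU_n(q)`, `q` even: same rank implies conjugate
-/

set_option autoImplicit false

namespace Cfsg.Agent.Lib.SUInvol.Basic

open Matrix Cfsg Module
open Cfsg.Agent.Lib.HermCount.Field Cfsg.Agent.Lib.HermCount.Space Cfsg.Agent.Lib.HermCount.Lines
open Cfsg.Agent.Lib.Witt.HermParabolic Cfsg.Agent.Lib.Witt.HermModel

variable {n q : ℕ} {F : Type*} [Field F] [Fintype F]

local notation "h" => hermForm n F q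

/-- `T` is self-adjoint. -/
def SA (n q : ℕ) {F : Type*} [Field F] (T : Matrix (Fin n) (Fin n) F) : Prop :=
  ∀ v w : Fin n → F, hermForm n F q (T *ᵥ v) w = hermForm n F q v (T *ᵥ w)

theorem sum_smul_right (hF : Fintype.card F = q ^ 2) {ι : Type*} (s : Finset ι) (c : ι → F)
    (b : ι → Fin n → F) (z : Fin n → F) :
    h z (∑ i ∈ s, c i • b i) = ∑ i ∈ s, (c i) ^ q * h z (b i) := by
  classical
  have S := herm_space (F := F) n hF
  induction s using Finset.induction_on with
  | empty => simp [S.zero_right hF]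
  | insert i s hi ih =>
    rw [Finset.sum_insert hi, Finset.sum_insert hi, S.add_right hF, S.smul_right hF, ih]

theorem T_T (hF : Fintype.card F = q ^ 2) {T : Matrix (Fin n) (Fin n) F} (hsa : SA n q T)
    (hsq : T * T = 0) (v w : Fin n → F) : h (T *ᵥ v) (T *ᵥ w) = 0 := by
  have S := herm_space (F := F) n hF
  rw [hsa, mulVec_mulVec, hsq, zero_mulVec, S.zero_right hF]

/-- An orthonormal family for the form `h(v, T w)`. -/
theorem exists_family (hF : Fintype.card F = q ^ 2) {T : Matrix (Fin n) (Fin n) F} (hsa : SA n q T) :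
    ∃ u : Fin T.rank → Fin n → F, ∀ i j, h (u i) (T *ᵥ u j) = if i = j then 1 else 0 := by
  classical
  have S := herm_space (F := F) n hF
  let Nl := T.mulVecLin
  obtain ⟨C, hC⟩ := Submodule.exists_isCompl (LinearMap.ker Nl)
  have hdec : ∀ y, ∃ c ∈ C, ∃ k, T *ᵥ k = 0 ∧ y = c + k := by
    intro y
    have hy : y ∈ C ⊔ LinearMap.ker Nl := by
      rw [hC.symm.sup_eq_top]
      exact Submodule.mem_top
    obtain ⟨c, hc, k, hk, rfl⟩ := Submodule.mem_sup.mp hy
    exact ⟨c, hc, k, hk, rfl⟩
  have hdim : finrank F C = T.rank := by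
    have h1 := Submodule.finrank_add_eq_of_isCompl hC
    have h2 := LinearMap.finrank_range_add_finrank_ker Nl
    have h3 : T.rank = finrank F (LinearMap.range Nl) := rfl
    omega
  let β : C → C → F := fun x y => h (x : Fin n → F) (T *ᵥ (y : Fin n → F))
  have Sβ : HSpace q β := by
    refine ⟨?_, ?_, ?_, ?_⟩
    · intro x y z
      exact S.add_left _ _ _
    · intro a x z
      exact S.smul_left _ _ _
    · intro x y
      change h (y : Fin n → F) (T *ᵥ (x : Fin n → F)) = (h (x : Fin n → F) (T *ᵥ (y : Fin n → F))) ^ q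
      rw [← S.conj, hsa]
    · intro x hx
      have h0 : T *ᵥ (x : Fin n → F) = 0 := by
        apply S.nd
        intro y
        obtain ⟨c, hc, k, hk, rfl⟩ := hdec y
        rw [hsa, mulVec_add, hk, add_zero]
        exact hx ⟨c, hc⟩
      have hmem : (x : Fin n → F) ∈ LinearMap.ker Nl := h0
      have := Submodule.disjoint_def.mp hC.disjoint _ hmem x.2
      exact Subtype.ext this
  obtain ⟨b, hb⟩ := exists_orthonormal hF T.rank C β Sβ hdim
  exact ⟨fun i => (b i : Fin n → F), fun i j => hb i j⟩

/-- Making the family isotropic. -/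
theorem isotropize [CharP F 2] (hF : Fintype.card F = q ^ 2) {T : Matrix (Fin n) (Fin n) F}
    (hsa : SA n q T) (hsq : T * T = 0) {r : ℕ} (u : Fin r → Fin n → F)
    (hu : ∀ i j, h (u i) (T *ᵥ u j) = if i = j then 1 else 0) :
    ∃ u' : Fin r → Fin n → F, (∀ i j, h (u' i) (T *ᵥ u' j) = if i = j then 1 else 0) ∧
      ∀ i j, h (u' i) (u' j) = 0 := by
  classical
  have S := herm_space (F := F) n hF
  have hq2 := two_le hF
  have hzero : (0 : F) ^ q = 0 := zero_pow (by omega)
  let A : Fin r → Fin r → F := fun i k => h (u i) (u k)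
  have hA : ∀ i, (A i i) ^ q = A i i := fun i => S.self_fix _
  choose s hs using fun i => exists_trace hF (A i i) (hA i)
  let c : Fin r → Fin r → F := fun i k => if i < k then A i k else if i = k then s i else 0
  let w : Fin r → Fin n → F := fun j => T *ᵥ u j
  let u' : Fin r → Fin n → F := fun i => u i + ∑ j, c i j • w j
  have hTw : ∀ j, T *ᵥ w j = 0 := by
    intro j
    simp only [w]
    rw [mulVec_mulVec, hsq, zero_mulVec]
  have hTu' : ∀ i, T *ᵥ u' i = w i := by
    intro i
    simp only [u']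
    rw [mulVec_add, mulVec_sum]
    simp only [mulVec_smul, hTw, smul_zero, Finset.sum_const_zero, add_zero]
    rfl
  have hww : ∀ j l, h (w j) (w l) = 0 := fun j l => T_T hF hsa hsq _ _
  have huw : ∀ i l, h (u i) (w l) = if i = l then 1 else 0 := hu
  have hwu : ∀ i l, h (w i) (u l) = if l = i then 1 else 0 := by
    intro i l
    rw [S.conj (u l) (w i), huw]
    split_ifs
    · simp
    · exact hzero
  refine ⟨u', ?_, ?_⟩
  · intro i j
    rw [hTu']
    simp only [u']
    rw [S.add_left, sum_smul_left S, huw]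
    simp only [hww, mul_zero, Finset.sum_const_zero, add_zero]
  · intro i k
    simp only [u']
    have e1 : h (u i) (∑ j, c k j • w j) = (c k i) ^ q := by
      rw [sum_smul_right hF]
      simp only [huw]
      simp
    have e2 : h (∑ j, c i j • w j) (u k) = c i k := by
      rw [sum_smul_left S]
      simp only [hwu]
      simp
    have e3 : h (∑ j, c i j • w j) (∑ j, c k j • w j) = 0 := by
      rw [sum_smul_left S]
      refine Finset.sum_eq_zero fun j _ => ?_
      rw [sum_smul_right hF]
      simp only [hww, mul_zero, Finset.sum_const_zero]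
    rw [S.add_left, S.add_right hF, S.add_right hF, e1, e2, e3, add_zero]
    change A i k + c k i ^ q + c i k = 0
    simp only [c]
    have h2' : ∀ x : F, x + x = 0 := fun x => CharTwo.add_self_eq_zero x
    rcases lt_trichotomy i k with hlt | heq | hgt
    · rw [if_neg (not_lt.mpr hlt.le), if_neg hlt.ne', if_pos hlt, hzero, add_zero]
      exact h2' _
    · subst heq
      rw [if_neg (lt_irrefl _), if_pos rfl]
      linear_combination h2' (A i i) + hs i
    · rw [if_pos hgt, if_neg (not_lt.mpr hgt.le), if_neg hgt.ne', add_zero]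
      have : A k i ^ q = A i k := (S.conj (u k) (u i)).symm
      rw [this]
      exact h2' _

/-- Facts on an isotropic family. -/
theorem li_of_family (hF : Fintype.card F = q ^ 2) {T : Matrix (Fin n) (Fin n) F} (hsa : SA n q T)
    (hsq : T * T = 0) {r : ℕ} (u : Fin r → Fin n → F)
    (hu : ∀ i j, h (u i) (T *ᵥ u j) = if i = j then 1 else 0) (hui : ∀ i j, h (u i) (u j) = 0) :
    LinearIndependent F (Sum.elim u (fun i => T *ᵥ u i)) := by
  classical
  have S := herm_space (F := F) n hF
  have hq2 := two_le hF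
  have hzero : (0 : F) ^ q = 0 := zero_pow (by omega)
  rw [Fintype.linearIndependent_iff]
  intro c hc
  have hsum := fun z => sum_smul_left S Finset.univ c (Sum.elim u (fun i => T *ᵥ u i)) z
  rw [hc] at hsum
  simp only [S.zero_left] at hsum
  rintro (i | i)
  · have := hsum (T *ᵥ u i)
    rw [Fintype.sum_sum_type] at this
    simp only [Sum.elim_inl, Sum.elim_inr, hu, T_T hF hsa hsq, mul_zero, Finset.sum_const_zero,
      add_zero] at this
    simpa using this.symm
  · have := hsum (u i)
    rw [Fintype.sum_sum_type] at this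
    simp only [Sum.elim_inl, Sum.elim_inr, hui, mul_zero, Finset.sum_const_zero, zero_add] at this
    have h2 : ∀ x : Fin r, h (T *ᵥ u x) (u i) = if x = i then 1 else 0 := by
      intro x
      rw [S.conj (u i) (T *ᵥ u x), hu]
      split_ifs with h3 h4 h4
      · simp
      · exact absurd h3.symm h4
      · exact absurd h4.symm h3
      · exact hzero
    simp only [h2] at this
    simpa using this.symm

/-- The Witt extension commuting with the `T`'s. -/
theorem exists_isom [CharP F 2] (hF : Fintype.card F = q ^ 2) {T T' : Matrix (Fin n) (Fin n) F}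
    (hsa : SA n q T) (hsq : T * T = 0) (hsa' : SA n q T') (hsq' : T' * T' = 0) (hr : T.rank = T'.rank) :
    ∃ g : (Fin n → F) ≃ₗ[F] (Fin n → F), (∀ x y, h (g x) (g y) = h x y) ∧
      (∀ v, g (T *ᵥ v) = T' *ᵥ g v) ∧
      (0 < T.rank → ∃ x y, h x x = 0 ∧ h y y = 0 ∧ h x y = 1 ∧ h y x = 1 ∧ T' *ᵥ x = y ∧ T' *ᵥ y = 0) := by
  classical
  have S := herm_space (F := F) n hF
  have hq2 := two_le hF
  have hzero : (0 : F) ^ q = 0 := zero_pow (by omega)
  obtain ⟨u₀, hu₀⟩ := exists_family hF hsa
  obtain ⟨u₁, hu₁⟩ := exists_family hF hsa'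
  obtain ⟨u, hu, hui⟩ := isotropize hF hsa hsq u₀ hu₀
  obtain ⟨u'₀, hu'₀, hui'₀⟩ := isotropize hF hsa' hsq' u₁ hu₁
  -- transport to the same index type
  let ι : Fin T.rank ≃ Fin T'.rank := finCongr hr
  let u' : Fin T.rank → Fin n → F := fun i => u'₀ (ι i)
  have hu' : ∀ i j, h (u' i) (T' *ᵥ u' j) = if i = j then 1 else 0 := by
    intro i j
    simp only [u']
    rw [hu'₀]
    simp only [ι.injective.eq_iff]
  have hui' : ∀ i j, h (u' i) (u' j) = 0 := fun i j => hui'₀ _ _
  have hli := li_of_family hF hsa hsq u hu hui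
  have hli' := li_of_family hF hsa' hsq' u' hu' hui'
  let e := (finSumFinEquiv (m := T.rank) (n := T.rank))
  -- the Gram matrix
  have gram : ∀ (T₁ : Matrix (Fin n) (Fin n) F) (_ : SA n q T₁) (_ : T₁ * T₁ = 0)
      (v : Fin T.rank → Fin n → F) (_ : ∀ i j, h (v i) (T₁ *ᵥ v j) = if i = j then 1 else 0)
      (_ : ∀ i j, h (v i) (v j) = 0) (a b : Fin T.rank ⊕ Fin T.rank),
      h (Sum.elim v (fun i => T₁ *ᵥ v i) a) (Sum.elim v (fun i => T₁ *ᵥ v i) b) =
        Sum.elim (fun i => Sum.elim (fun j => (0 : F)) (fun j => if i = j then 1 else 0) b)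
          (fun i => Sum.elim (fun j => if i = j then 1 else 0) (fun j => (0 : F)) b) a := by
    intro T₁ hs₁ hq₁ v hv hvi a b
    rcases a with i | i <;> rcases b with j | j
    · simpa using hvi i j
    · simpa using hv i j
    · simp only [Sum.elim_inr, Sum.elim_inl]
      rw [S.conj (v j) (T₁ *ᵥ v i), hv]
      split_ifs with h3 h4 h4
      · simp
      · exact absurd h3.symm h4
      · exact absurd h4.symm h3
      · exact hzero
    · simpa using T_T hF hs₁ hq₁ _ _
  obtain ⟨g, hg1, hg2⟩ := witt_herm hF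
    ((Sum.elim u (fun i => T *ᵥ u i)) ∘ e.symm) ((Sum.elim u' (fun i => T' *ᵥ u' i)) ∘ e.symm)
    (hli.comp e.symm e.symm.injective) (hli'.comp e.symm e.symm.injective)
    (fun i j => by
      simp only [Function.comp]
      rw [gram T hsa hsq u hu hui, gram T' hsa' hsq' u' hu' hui'])
  have hgu : ∀ i, g (u i) = u' i := fun i => by
    have := hg2 (e (Sum.inl i))
    simpa using this
  have hgw : ∀ i, g (T *ᵥ u i) = T' *ᵥ u' i := fun i => by
    have := hg2 (e (Sum.inr i))
    simpa using this
  refine ⟨g, hg1, ?_, ?_⟩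
  · -- commuting
    have hspan : ∀ (T₁ : Matrix (Fin n) (Fin n) F) (v : Fin T.rank → Fin n → F),
        LinearIndependent F (Sum.elim v (fun i => T₁ *ᵥ v i)) → T.rank = T₁.rank →
        ∀ x, ∃ c : Fin T.rank → F, T₁ *ᵥ x = ∑ i, c i • (T₁ *ᵥ v i) := by
      intro T₁ v hli hr x
      have hliw : LinearIndependent F (fun i => T₁ *ᵥ v i) :=
        hli.comp Sum.inr Sum.inr_injective
      have hle : Submodule.span F (Set.range fun i => T₁ *ᵥ v i) ≤ LinearMap.range T₁.mulVecLin := by
        rw [Submodule.span_le]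
        rintro _ ⟨i, rfl⟩
        exact ⟨v i, rfl⟩
      have heq : Submodule.span F (Set.range fun i => T₁ *ᵥ v i) = LinearMap.range T₁.mulVecLin := by
        apply Submodule.eq_of_le_of_finrank_eq hle
        rw [finrank_span_eq_card hliw, Fintype.card_fin, hr]
        rfl
      have hx : T₁ *ᵥ x ∈ Submodule.span F (Set.range fun i => T₁ *ᵥ v i) := by
        rw [heq]
        exact ⟨x, rfl⟩
      obtain ⟨c, hc⟩ := (Submodule.mem_span_range_iff_exists_fun F).mp hx
      exact ⟨c, hc.symm⟩
    intro v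
    obtain ⟨c, hc⟩ := hspan T u hli rfl v
    obtain ⟨c', hc'⟩ := hspan T' u' hli' hr (g v)
    have hL : g (T *ᵥ v) = ∑ i, c i • (T' *ᵥ u' i) := by
      rw [hc, map_sum]
      refine Finset.sum_congr rfl fun i _ => ?_
      rw [map_smul, hgw]
    have hcc : c = c' := by
      funext j
      have h1 : h (g (T *ᵥ v)) (u' j) = h (T *ᵥ v) (u j) := by
        rw [← hgu, hg1]
      have h2 : h (T' *ᵥ g v) (u' j) = h (T *ᵥ v) (u j) := by
        rw [hsa', hsa, ← hgw, hg1]
      have h3 : ∀ (d : Fin T.rank → F), h (∑ i, d i • (T' *ᵥ u' i)) (u' j) = d j := by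
        intro d
        rw [sum_smul_left S]
        have h4 : ∀ x : Fin T.rank, h (T' *ᵥ u' x) (u' j) = if x = j then 1 else 0 := by
          intro x
          rw [S.conj (u' j) (T' *ᵥ u' x), hu']
          split_ifs with h3 h4 h4
          · simp
          · exact absurd h3.symm h4
          · exact absurd h4.symm h3
          · exact hzero
        simp only [h4]
        simp
      have h5 := h3 c
      have h6 := h3 c'
      rw [← hL, h1] at h5
      rw [← hc', h2] at h6
      rw [← h5, ← h6]
    rw [hL, hc', hcc]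
  · intro hpos
    let i₀ : Fin T.rank := ⟨0, hpos⟩
    refine ⟨u' i₀, T' *ᵥ u' i₀, hui' _ _, T_T hF hsa' hsq' _ _, ?_, ?_, ?_, ?_⟩
    · rw [hu']; simp
    · rw [S.conj (u' i₀) (T' *ᵥ u' i₀), hu']; simp
    · rfl
    · rw [mulVec_mulVec, hsq', zero_mulVec]

end Cfsg.Agent.Lib.SUInvol.Basic
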