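import Cfsg.Agent.Lib.SUInvol.Basic

/-!
# Involutions of `SU_n(q)`, `q` even: same rank implies conjugate
-/

set_option autoImplicit false

namespace Cfsg.Agent.Lib.SUInvol.Final

open Matrix Cfsg Module
open Cfsg.Agent.Lib.HermCount.Field Cfsg.Agent.Lib.HermCount.Space Cfsg.Agent.Lib.HermCount.Lines
open Cfsg.Agent.Lib.Witt.HermParabolic Cfsg.Agent.Lib.Witt.HermModel
open Cfsg.Agent.Lib.SUInvol.Basic

variable {n q : ℕ} {F : Type*} [Field F] [Fintype F]

local notation "h" => hermForm n F q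

lemma mat_of (a : ↥(SU n F q)) :
    ∀ u v, h ((a.1 : Matrix (Fin n) (Fin n) F) *ᵥ u) ((a.1 : Matrix (Fin n) (Fin n) F) *ᵥ v) = h u v :=
  a.2

lemma sq_mat (a : ↥(SU n F q)) (ha : orderOf a = 2) :
    (a.1 : Matrix (Fin n) (Fin n) F) * (a.1 : Matrix (Fin n) (Fin n) F) = 1 := by
  have haa : a ^ 2 = 1 := by rw [← ha]; exact pow_orderOf_eq_one a
  rw [pow_two] at haa
  have := congrArg (fun x : ↥(SU n F q) => (x.1 : Matrix (Fin n) (Fin n) F)) haa
  simpa using this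

lemma T_sq [CharP F 2] (a : ↥(SU n F q)) (ha : orderOf a = 2) :
    ((a.1 : Matrix (Fin n) (Fin n) F) - 1) * ((a.1 : Matrix (Fin n) (Fin n) F) - 1) = 0 := by
  have hA2 := sq_mat a ha
  have h2 : (a.1 : Matrix (Fin n) (Fin n) F) + (a.1 : Matrix (Fin n) (Fin n) F) = 0 := by
    ext i j
    exact CharTwo.add_self_eq_zero _
  have h3 : (1 : Matrix (Fin n) (Fin n) F) + 1 = 0 := by
    ext i j
    exact CharTwo.add_self_eq_zero _
  calc ((a.1 : Matrix (Fin n) (Fin n) F) - 1) * ((a.1 : Matrix (Fin n) (Fin n) F) - 1)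
      = (a.1 : Matrix (Fin n) (Fin n) F) * (a.1 : Matrix (Fin n) (Fin n) F) + 1 -
          ((a.1 : Matrix (Fin n) (Fin n) F) + (a.1 : Matrix (Fin n) (Fin n) F)) := by
        rw [sub_mul, mul_sub, mul_sub]
        simp only [mul_one, one_mul]
        abel
    _ = 0 := by rw [hA2, h2, h3]; simp

lemma T_sa (hF : Fintype.card F = q ^ 2) (a : ↥(SU n F q)) (ha : orderOf a = 2) :
    SA n q ((a.1 : Matrix (Fin n) (Fin n) F) - 1) := by
  have S := herm_space (F := F) n hF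
  intro v w
  rw [sub_mulVec, sub_mulVec, one_mulVec, one_mulVec, S.sub_left, S.sub_right hF]
  congr 1
  have h1 : (a.1 : Matrix (Fin n) (Fin n) F) *ᵥ ((a.1 : Matrix (Fin n) (Fin n) F) *ᵥ w) = w := by
    rw [mulVec_mulVec, sq_mat a ha, one_mulVec]
  calc h ((a.1 : Matrix (Fin n) (Fin n) F) *ᵥ v) w
      = h ((a.1 : Matrix (Fin n) (Fin n) F) *ᵥ v)
          ((a.1 : Matrix (Fin n) (Fin n) F) *ᵥ ((a.1 : Matrix (Fin n) (Fin n) F) *ᵥ w)) := by rw [h1]
    _ = h v ((a.1 : Matrix (Fin n) (Fin n) F) *ᵥ w) := mat_of a _ _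

lemma rank_pos (a : ↥(SU n F q)) (ha : orderOf a = 2) :
    0 < ((a.1 : Matrix (Fin n) (Fin n) F) - 1).rank := by
  by_contra hcon
  have h0 : ((a.1 : Matrix (Fin n) (Fin n) F) - 1).rank = 0 := by omega
  have h1 : LinearMap.range ((a.1 : Matrix (Fin n) (Fin n) F) - 1).mulVecLin = ⊥ := by
    apply Submodule.finrank_eq_zero.mp
    exact h0
  have h2 : ((a.1 : Matrix (Fin n) (Fin n) F) - 1).mulVecLin = 0 := LinearMap.range_eq_bot.mp h1
  have h3 : (a.1 : Matrix (Fin n) (Fin n) F) - 1 = 0 := by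
    apply Matrix.mulVec_injective
    funext v
    have := congrArg (fun l => l v) h2
    simpa [sub_mulVec] using this
  have h4 : a = 1 := by
    apply Subtype.ext
    apply Subtype.ext
    exact sub_eq_zero.mp h3
  rw [h4, orderOf_one] at ha
  omega

/-- The main theorem: same rank implies conjugate in `SU`. -/
theorem conj_of_rank [CharP F 2] (hF : Fintype.card F = q ^ 2) (a b : ↥(SU n F q))
    (ha : orderOf a = 2) (hb : orderOf b = 2)
    (hr : ((a.1 : Matrix (Fin n) (Fin n) F) - 1).rank = ((b.1 : Matrix (Fin n) (Fin n) F) - 1).rank) :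
    IsConj a b := by
  classical
  have S := herm_space (F := F) n hF
  obtain ⟨g, hg1, hg2, hg3⟩ := exists_isom hF (T_sa hF a ha) (T_sq a ha) (T_sa hF b hb) (T_sq b hb) hr
  obtain ⟨x, y, hxx, hyy, hxy, hyx, hTx, hTy⟩ := hg3 (rank_pos a ha)
  set T' : Matrix (Fin n) (Fin n) F := (b.1 : Matrix (Fin n) (Fin n) F) - 1 with hT'
  set T : Matrix (Fin n) (Fin n) F := (a.1 : Matrix (Fin n) (Fin n) F) - 1 with hT
  let G : Matrix (Fin n) (Fin n) F := LinearMap.toMatrix' g.toLinearMap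
  have hG : ∀ v, G *ᵥ v = g v := fun v => by
    simp only [G]
    rw [LinearMap.toMatrix'_mulVec]
    rfl
  have hGiso : ∀ u v, h (G *ᵥ u) (G *ᵥ v) = h u v := fun u v => by rw [hG, hG, hg1]
  have hnorm := det_mul_frob hF G hGiso
  have hG0 : G.det ≠ 0 := by
    intro h0
    rw [h0, zero_mul] at hnorm
    exact zero_ne_one hnorm
  -- the square root
  obtain ⟨s, hs⟩ : ∃ s : F, s ^ 2 = (G.det)⁻¹ := by
    have hp : Fact (Nat.Prime 2) := ⟨Nat.prime_two⟩
    obtain ⟨y, hy⟩ := Finite.surjective_of_injective (frobenius_inj F 2) (G.det)⁻¹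
    exact ⟨y, by simpa [frobenius_def] using hy⟩
  have hss : s ^ q * s = 1 := by
    have h1 : (s ^ q * s) ^ 2 = 1 := by
      rw [mul_pow, ← pow_mul, mul_comm q 2, pow_mul, hs, inv_pow]
      field_simp
      have : G.det ^ q * G.det = 1 := by rw [mul_comm]; exact hnorm
      exact (this.symm)
    have h2 : (s ^ q * s + 1) ^ 2 = 0 := by
      rw [add_pow_two, h1]
      have h3 : (2 : F) = 0 := CharTwo.two_eq_zero
      rw [h3]
      simp only [zero_mul, one_pow, add_zero]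
      exact CharTwo.add_self_eq_zero 1
    have h3 : s ^ q * s + 1 = 0 := pow_eq_zero_iff (by norm_num) |>.mp h2
    have h4 : (1 : F) + 1 = 0 := CharTwo.add_self_eq_zero 1
    linear_combination h3 - h4
  let D : Matrix (Fin n) (Fin n) F := corrMat q x y s s
  have hDiso : ∀ u v, h (D *ᵥ u) (D *ᵥ v) = h u v := fun u v =>
    corrMat_iso hF hxx hyy hxy hyx hss u v
  have hDdet : D.det = (G.det)⁻¹ := by
    simp only [D]
    rw [det_corrMat hF s s hxy hyx, ← hs, pow_two]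
  have hDT : ∀ z, D *ᵥ (T' *ᵥ z) = T' *ᵥ (D *ᵥ z) := by
    intro z
    simp only [D]
    rw [corrMat_mulVec hF s s hyy, corrMat_mulVec hF s s hyy]
    rw [mulVec_add, mulVec_add, mulVec_smul, mulVec_smul, hTx, hTy, smul_zero, add_zero]
    have e1 : h (T' *ᵥ z) x = h z y := by
      rw [T_sa hF b hb z x, ← hT', hTx]
    have e2 : h (T' *ᵥ z) y = 0 := by
      rw [T_sa hF b hb z y, ← hT', hTy, S.zero_right hF]
    rw [e1, e2]
    simp
  have hdet : (D * G).det = 1 := by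
    rw [Matrix.det_mul, hDdet]
    exact inv_mul_cancel₀ hG0
  let c₀ : Matrix.SpecialLinearGroup (Fin n) F := ⟨D * G, hdet⟩
  have hc₀ : c₀ ∈ SU n F q := by
    intro u v
    change h ((D * G) *ᵥ u) ((D * G) *ᵥ v) = h u v
    rw [← mulVec_mulVec, ← mulVec_mulVec, hDiso, hGiso]
  let c : ↥(SU n F q) := ⟨c₀, hc₀⟩
  rw [isConj_iff]
  refine ⟨c, ?_⟩
  rw [mul_inv_eq_iff_eq_mul]
  apply Subtype.ext
  apply Subtype.ext
  change (D * G) * (a.1 : Matrix (Fin n) (Fin n) F) = (b.1 : Matrix (Fin n) (Fin n) F) * (D * G)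
  have hcomm : ∀ v, (D * G) *ᵥ (T *ᵥ v) = T' *ᵥ ((D * G) *ᵥ v) := by
    intro v
    rw [← mulVec_mulVec, ← mulVec_mulVec, hG, hG, hg2, hDT]
  apply Matrix.mulVec_injective
  funext v
  have := hcomm v
  simp only [hT, hT', sub_mulVec, one_mulVec, mulVec_sub] at this
  have h2 : (D * G) *ᵥ ((a.1 : Matrix (Fin n) (Fin n) F) *ᵥ v) =
      (b.1 : Matrix (Fin n) (Fin n) F) *ᵥ ((D * G) *ᵥ v) := sub_left_injective this
  simpa [mulVec_mulVec] using h2

end Cfsg.Agent.Lib.SUInvol.Final
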